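import Mathlib
import Cfsg.Agent.Golay.OctadStab
import Cfsg.Agent.Linear.TransvCentTwo

/-!
# An involution centralizer of `M24` and the centralizer of a transvection
-/

set_option autoImplicit false
set_option maxRecDepth 20000

open Cfsg Cfsg.Agent.Golay
open scoped Pointwise

namespace Cfsg.Agent.TwoGroups.MathieuCentralizer

/-- The vectors naming the fixer of the standard octad. -/
abbrev Vec : Type := Fin 4 → ZMod 2

/-- The sixteen translations. -/
def vecTable : List ℕ := [984818244535754528103549039458486304, 958359841193275559058527489894996000,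
  959775806916153066781728529055426592, 969202056781860934635753244362607648,
  960796265644511697179202340874633248, 976607671605327482668242317735039008,
  966065889199318864952172779198879776, 963746088592452898125099198249967648,
  962043633843586950641282970664807456, 970321392277576132733525417503691808,
  964814718068974595068575295767492640, 973804896116145416835644806975036448,
  983548058628271758227072553185584160, 967150998107068424814075433960756256,
  971084517930466411659722882702561312, 981778418385515084080897070847012896]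

/-- The code of a vector. -/
def vecCode (v : Vec) : ℕ :=
  vecTable.getD ((v 0).val + 2 * (v 1).val + 4 * (v 2).val + 8 * (v 3).val) 0

/-- The first basis vector. -/
def e₀ : Vec := ![1, 0, 0, 0]

theorem vec_checks :
    (∀ v w : Vec, isComp (vecCode (v + w)) (vecCode v) (vecCode w) = true) ∧
    (∀ v : Vec, vecCode v ∈ fixCodes) ∧ vecCode 0 = idCode ∧
    (∀ v : Vec, app (vecCode v) 2 = 2 → v = 0) ∧
    ((List.range 24).all fun i => (9347075 : ℕ).testBit i == (app (vecCode e₀) i == i)) = true ∧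
    (∀ a b : ZMod 2, a * b = 1 → a = 1) ∧ (9347075 : ℕ).testBit 2 = false := by
  decide +kernel

/-- The standard octad. -/
def oct₀ : Finset GolayPt := bset 9347075

theorem oct₀_mem : oct₀ ∈ octads := octad_base'

/-- The fixer of the standard octad. -/
abbrev fixN : Subgroup (Equiv.Perm GolayPt) :=
  M24 ⊓ fixingSubgroup (Equiv.Perm GolayPt) (↑oct₀ : Set GolayPt)

theorem base_out : pt 2 ∉ oct₀ := by
  rw [oct₀, mem_bset, idx_pt (by norm_num), vec_checks.2.2.2.2.2.2]
  simp

theorem fixN_card : Nat.card fixN = 16 := fixer_std_card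

/-- The translation with a given vector. -/
noncomputable def tr : Multiplicative Vec →* fixN :=
  MonoidHom.mk' (fun v => ⟨permOf (vecCode v.toAdd), (fixCode_spec (vec_checks.2.1 _)).2.1⟩)
    fun v w => Subtype.ext (permOf_mul (fixCode_spec (vec_checks.2.1 _)).1
      (fixCode_spec (vec_checks.2.1 _)).1 (fixCode_spec (vec_checks.2.1 _)).1 (vec_checks.1 _ _))

theorem tr_apply (v : Multiplicative Vec) :
    ((tr v : fixN) : Equiv.Perm GolayPt) = permOf (vecCode v.toAdd) := rfl

theorem tr_eq_one_of_fix {v : Multiplicative Vec}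
    (h : ((tr v : fixN) : Equiv.Perm GolayPt) (pt 2) = pt 2) : v = 1 := by
  rw [tr_apply, permOf_pt (fixCode_spec (vec_checks.2.1 _)).1 (by norm_num)] at h
  have := congrArg idx h
  rw [idx_pt (app_lt (fixCode_spec (vec_checks.2.1 _)).1 (by norm_num)), idx_pt (by norm_num)] at this
  exact congrArg Multiplicative.ofAdd (vec_checks.2.2.2.1 _ this)

theorem tr_bijective : Function.Bijective tr := by
  refine (Nat.bijective_iff_injective_and_card tr).2 ⟨?_, ?_⟩
  · rw [injective_iff_map_eq_one]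
    intro v hv
    exact tr_eq_one_of_fix (by rw [hv]; rfl)
  · rw [fixN_card, Nat.card_congr Multiplicative.toAdd, Nat.card_fun, Nat.card_fin,
      Nat.card_eq_fintype_card, ZMod.card]
    norm_num

/-- The vector of an element of the fixer. -/
noncomputable def vecOf : fixN ≃* Multiplicative Vec := (MulEquiv.ofBijective tr tr_bijective).symm

theorem tr_vecOf (n : fixN) : tr (vecOf n) = n := (MulEquiv.ofBijective tr tr_bijective).apply_symm_apply n

/-- The involution. -/
noncomputable def inv₀ : ↥M24 := ⟨permOf (vecCode e₀), (tr (Multiplicative.ofAdd e₀)).2.1⟩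

/-- Its centraliser. -/
abbrev cent : Subgroup ↥M24 := Subgroup.centralizer {inv₀}

theorem inv₀_fix (p : GolayPt) : (inv₀ : Equiv.Perm GolayPt) p = p ↔ p ∈ oct₀ := by
  have h := List.all_eq_true.1 vec_checks.2.2.2.2.1 (idx p) (List.mem_range.2 (idx_lt p))
  simp only [beq_iff_eq] at h
  rw [oct₀, mem_bset, h, beq_iff_eq, ← idx_permOf (fixCode_spec (vec_checks.2.1 _)).1]
  exact ⟨fun e => congrArg idx e, fun e => idx_injective e⟩

theorem e₀_add : e₀ + e₀ = 0 := by decide +kernel

theorem inv₀_order : orderOf inv₀ = 2 := by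
  haveI := Fact.mk Nat.prime_two
  refine orderOf_eq_prime (Subtype.ext ?_) fun e => base_out ((inv₀_fix _).1 (by rw [e]; rfl))
  have h : tr (Multiplicative.ofAdd e₀) ^ 2 = 1 := by
    rw [← map_pow, pow_two, ← map_one tr]
    exact congrArg tr (congrArg Multiplicative.ofAdd e₀_add)
  exact (congrArg (fun n : fixN => (n : Equiv.Perm GolayPt)) h :)

theorem cent_stable {g : ↥M24} (hg : g ∈ cent) :
    (g : Equiv.Perm GolayPt) • oct₀ = oct₀ := by
  refine Finset.eq_of_subset_of_card_le (fun q hq => ?_) (Finset.card_smul_finset _ _).ge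
  obtain ⟨p, hp, rfl⟩ := Finset.mem_smul_finset.1 hq
  rw [← inv₀_fix] at hp ⊢
  have e := congrArg (fun x : ↥M24 => (x : Equiv.Perm GolayPt) p)
    (Subgroup.mem_centralizer_singleton_iff.1 hg)
  simp only [Subgroup.coe_mul, Equiv.Perm.mul_apply] at e
  rw [hp] at e
  exact e.symm

theorem cent_conj_mem (g : cent) {n : Equiv.Perm GolayPt} (hn : n ∈ fixN) :
    ((g : ↥M24) : Equiv.Perm GolayPt) * n * ((g : ↥M24) : Equiv.Perm GolayPt)⁻¹ ∈ fixN := by
  refine mem_fixer_iff.2 ⟨mul_mem (mul_mem (g : ↥M24).2 (mem_fixer_iff.1 hn).1)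
    (inv_mem (g : ↥M24).2), fun p hp => ?_⟩
  have h : ((g : ↥M24) : Equiv.Perm GolayPt)⁻¹ p ∈ oct₀ := by
    rw [← cent_stable g.2, Finset.mem_smul_finset] at hp
    obtain ⟨q, hq, rfl⟩ := hp
    rw [Equiv.Perm.smul_def, show ((g : ↥M24) : Equiv.Perm GolayPt)⁻¹
      (((g : ↥M24) : Equiv.Perm GolayPt) q) = q from Equiv.symm_apply_apply _ q]
    exact hq
  rw [Equiv.Perm.mul_apply, Equiv.Perm.mul_apply, (mem_fixer_iff.1 hn).2 _ h]
  exact Equiv.apply_symm_apply _ p

/-- The linear part. -/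
noncomputable def lin (g : cent) : Vec →ₗ[ZMod 2] Vec :=
  ({ toFun := fun v => (vecOf ⟨_, cent_conj_mem g (tr (Multiplicative.ofAdd v)).2⟩).toAdd
     map_zero' := by
       rw [show (⟨_, cent_conj_mem g (tr (Multiplicative.ofAdd (0 : Vec))).2⟩ : fixN) = 1 from
         Subtype.ext (by rw [ofAdd_zero, map_one]; simp), map_one]
       rfl
     map_add' := fun v w => by
       rw [← toAdd_mul, ← map_mul]
       congr 2
       refine Subtype.ext ?_
       simp [ofAdd_add, mul_assoc] } : Vec →+ Vec).toZModLinearMap 2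

theorem tr_lin (g : cent) (v : Vec) :
    ((tr (Multiplicative.ofAdd (lin g v)) : fixN) : Equiv.Perm GolayPt) =
      ((g : ↥M24) : Equiv.Perm GolayPt) * (tr (Multiplicative.ofAdd v) : fixN) *
        ((g : ↥M24) : Equiv.Perm GolayPt)⁻¹ := by
  show ((tr (vecOf _) : fixN) : Equiv.Perm GolayPt) = _
  rw [tr_vecOf]

theorem exists_shift (g : cent) : ∃ v : Vec,
    ((tr (Multiplicative.ofAdd v) : fixN) : Equiv.Perm GolayPt) (pt 2) =
      ((g : ↥M24) : Equiv.Perm GolayPt) (pt 2) := by
  obtain ⟨h, hh, e⟩ := fixer_transitive oct₀_mem base_out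
    (q := ((g : ↥M24) : Equiv.Perm GolayPt) (pt 2)) (fun hc => base_out (by
      rw [← cent_stable g.2] at hc
      exact (Finset.smul_mem_smul_finset_iff _).1 hc))
  exact ⟨(vecOf ⟨h, hh⟩).toAdd, by rw [ofAdd_toAdd, tr_vecOf]; exact e⟩

/-- The translation part. -/
noncomputable def shift (g : cent) : Vec := (exists_shift g).choose

theorem shift_spec (g : cent) :
    ((tr (Multiplicative.ofAdd (shift g)) : fixN) : Equiv.Perm GolayPt) (pt 2) =
      ((g : ↥M24) : Equiv.Perm GolayPt) (pt 2) := (exists_shift g).choose_spec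

theorem shift_unique (g : cent) {v : Vec}
    (h : ((tr (Multiplicative.ofAdd v) : fixN) : Equiv.Perm GolayPt) (pt 2) =
      ((g : ↥M24) : Equiv.Perm GolayPt) (pt 2)) : shift g = v := by
  have h1 : (Multiplicative.ofAdd v)⁻¹ * Multiplicative.ofAdd (shift g) = 1 := by
    refine tr_eq_one_of_fix ?_
    rw [map_mul, map_inv, Subgroup.coe_mul, Subgroup.coe_inv, Equiv.Perm.mul_apply, shift_spec, ← h]
    exact Equiv.symm_apply_apply _ _
  exact Multiplicative.ofAdd.injective (inv_mul_eq_one.1 h1).symm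

theorem tr_inj {v w : Vec}
    (h : ((tr (Multiplicative.ofAdd v) : fixN) : Equiv.Perm GolayPt) =
      (tr (Multiplicative.ofAdd w) : fixN)) : v = w :=
  Multiplicative.ofAdd.injective (tr_bijective.1 (Subtype.ext h))

theorem lin_mul (g h : cent) (v : Vec) : lin (g * h) v = lin g (lin h v) := by
  refine tr_inj ?_
  rw [tr_lin, tr_lin, tr_lin]
  simp [mul_assoc]

theorem shift_mul (g h : cent) : shift (g * h) = shift g + lin g (shift h) := by
  refine shift_unique _ ?_
  rw [add_comm, ofAdd_add, map_mul, Subgroup.coe_mul, Equiv.Perm.mul_apply, shift_spec, tr_lin,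
    Equiv.Perm.mul_apply, Equiv.Perm.mul_apply,
    show ((g : ↥M24) : Equiv.Perm GolayPt)⁻¹ (((g : ↥M24) : Equiv.Perm GolayPt) (pt 2)) = pt 2 from
      Equiv.symm_apply_apply _ _, shift_spec]
  rfl

/-- The augmented linear map. -/
noncomputable def aug (g : cent) : Module.End (ZMod 2) (Fin 5 → ZMod 2) where
  toFun w := Fin.insertNth 1 (w 1) (lin g (w ∘ Fin.succAbove 1) + w 1 • shift g)
  map_add' v w := by
    ext i
    refine Fin.succAboveCases 1 ?_ (fun j => ?_) i
    · simp
    · simp only [Fin.insertNth_apply_succAbove, Pi.add_apply]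
      rw [show (v + w) ∘ Fin.succAbove 1 = v ∘ Fin.succAbove 1 + w ∘ Fin.succAbove 1 from rfl,
        map_add]
      simp [add_smul]
      ring
  map_smul' c w := by
    ext i
    refine Fin.succAboveCases 1 ?_ (fun j => ?_) i
    · simp
    · simp only [Fin.insertNth_apply_succAbove, Pi.smul_apply, RingHom.id_apply]
      rw [show (c • w) ∘ Fin.succAbove 1 = c • (w ∘ Fin.succAbove 1) from rfl, map_smul]
      simp [mul_add, smul_eq_mul, mul_assoc]

theorem aug_apply (g : cent) (w : Fin 5 → ZMod 2) :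
    aug g w = Fin.insertNth 1 (w 1) (lin g (w ∘ Fin.succAbove 1) + w 1 • shift g) := rfl

theorem aug_mul (g h : cent) : aug (g * h) = aug g * aug h := by
  refine LinearMap.ext fun w => ?_
  rw [Module.End.mul_apply, aug_apply, aug_apply g]
  have h1 : aug h w 1 = w 1 := by rw [aug_apply]; simp
  have h2 : aug h w ∘ Fin.succAbove 1 = lin h (w ∘ Fin.succAbove 1) + w 1 • shift h := by
    funext j
    simp [aug_apply]
  rw [h1, h2, map_add, map_smul, lin_mul, shift_mul, smul_add]
  congr 1
  abel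

theorem aug_one : aug 1 = 1 := by
  have hl : ∀ v, lin 1 v = v := fun v => tr_inj (by rw [tr_lin]; simp)
  have hs : shift 1 = 0 := shift_unique _ (by rw [ofAdd_zero, map_one]; rfl)
  refine LinearMap.ext fun w => ?_
  ext i
  refine Fin.succAboveCases 1 ?_ (fun j => ?_) i
  · simp [aug_apply]
  · simp [aug_apply, hl, hs]

theorem disjoint_octad : inC 5329044 = true ∧ pc 5329044 = 8 ∧
    (∀ i < 24, (5329044 : ℕ).testBit i = true → (9347075 : ℕ).testBit i = false) ∧
    ∃ i < 24, (5329044 : ℕ).testBit i = false ∧ (9347075 : ℕ).testBit i = false := by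
  decide +kernel

theorem card_sl3 : Fintype.card (Matrix.SpecialLinearGroup (Fin 3) (ZMod 2)) = 168 := by
  decide +kernel

/-- The matrix representation. -/
noncomputable def rep : cent →* Matrix.SpecialLinearGroup (Fin 5) (ZMod 2) :=
  MonoidHom.mk' (fun g => ⟨LinearMap.toMatrixAlgEquiv' (aug g), by
    refine vec_checks.2.2.2.2.2.1 _ (LinearMap.toMatrixAlgEquiv' (aug g⁻¹)).det ?_
    rw [← Matrix.det_mul, ← map_mul, ← aug_mul, mul_inv_cancel, aug_one, map_one, Matrix.det_one]⟩)
    fun g h => Subtype.ext (by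
      show LinearMap.toMatrixAlgEquiv' (aug (g * h)) = _ * _
      rw [aug_mul, map_mul])

theorem rep_injective : Function.Injective rep := by
  rw [injective_iff_map_eq_one]
  intro g hg
  have haug : aug g = 1 := by
    have h := congrArg (fun A : Matrix.SpecialLinearGroup (Fin 5) (ZMod 2) => A.1) hg
    exact LinearMap.toMatrixAlgEquiv'.injective (h.trans (map_one _).symm)
  have hlin : ∀ v, lin g v = v := fun v => by
    have h := congrArg (fun T : Module.End (ZMod 2) (Fin 5 → ZMod 2) =>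
      T (Fin.insertNth 1 0 v) ∘ Fin.succAbove 1) haug
    simpa [aug_apply, Function.comp_def] using h
  have hshift : shift g = 0 := by
    have h := congrArg (fun T : Module.End (ZMod 2) (Fin 5 → ZMod 2) =>
      T (Fin.insertNth 1 1 0) ∘ Fin.succAbove 1) haug
    funext j
    simpa [aug_apply, hlin, Function.comp_def] using congrFun h j
  set σ := ((g : ↥M24) : Equiv.Perm GolayPt)
  have h2 : σ (pt 2) = pt 2 := by
    rw [← shift_spec g, hshift, ofAdd_zero, map_one]; rfl
  have hout : ∀ q, q ∉ oct₀ → σ q = q := by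
    intro q hq
    obtain ⟨n, hn, rfl⟩ := fixer_transitive oct₀_mem base_out hq
    have e := tr_lin g (vecOf ⟨n, hn⟩).toAdd
    rw [hlin, ofAdd_toAdd, tr_vecOf] at e
    show σ (n (pt 2)) = n (pt 2)
    conv_rhs => rw [show n = σ * n * σ⁻¹ from e, Equiv.Perm.mul_apply, Equiv.Perm.mul_apply,
      show σ⁻¹ (pt 2) = pt 2 by conv_lhs => rw [← h2]; exact Equiv.symm_apply_apply _ _]
  obtain ⟨hc1, hc2, hc3, hc4⟩ := disjoint_octad
  have ho₁ : bset 5329044 ∈ octads := by
    rw [mem_octads_iff, mask_bset (by norm_num)]; exact ⟨hc1, hc2⟩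
  have hdisj : ∀ q ∈ bset 5329044, q ∉ oct₀ := fun q hq => by
    rw [oct₀, mem_bset, hc3 _ (idx_lt q) (mem_bset.1 hq)]
    simp
  obtain ⟨i, hi, hi1, hi2⟩ := hc4
  have h1 : σ = 1 := fixer_free ho₁ (mem_fixer_iff.2 ⟨(g : ↥M24).2, fun q hq => hout q (hdisj q hq)⟩)
    (p := pt i) (by rw [mem_bset, idx_pt hi, hi1]; simp)
    (hout _ (by rw [oct₀, mem_bset, idx_pt hi, hi2]; simp))
  exact Subtype.ext (Subtype.ext h1)

theorem cent_card_ge : 21504 ≤ Nat.card cent := by
  let S : Subgroup ↥M24 := MulAction.stabilizer ↥M24 oct₀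
  have hS : Nat.card S = 322560 := by
    rw [← M24_octad_stab_card oct₀_mem]
    exact Nat.card_congr
      { toFun := fun g => ⟨g.1.1, g.1.2, g.2⟩
        invFun := fun g => ⟨⟨g.1, g.2.1⟩, g.2.2⟩
        left_inv := fun _ => rfl
        right_inv := fun _ => rfl }
  have hle : cent ≤ S := fun g hg => cent_stable hg
  have hmem : ∀ g : S, ((g : ↥M24) : Equiv.Perm GolayPt) * (inv₀ : Equiv.Perm GolayPt) *
      ((g : ↥M24) : Equiv.Perm GolayPt)⁻¹ ∈ fixN := by
    intro g
    refine mem_fixer_iff.2 ⟨mul_mem (mul_mem g.1.2 inv₀.2) (inv_mem g.1.2), fun p hp => ?_⟩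
    have h : ((g : ↥M24) : Equiv.Perm GolayPt)⁻¹ p ∈ oct₀ := by
      rw [← show ((g : ↥M24) : Equiv.Perm GolayPt) • oct₀ = oct₀ from g.2, Finset.mem_smul_finset] at hp
      obtain ⟨q, hq, rfl⟩ := hp
      rw [Equiv.Perm.smul_def, show ((g : ↥M24) : Equiv.Perm GolayPt)⁻¹
        (((g : ↥M24) : Equiv.Perm GolayPt) q) = q from Equiv.symm_apply_apply _ q]
      exact hq
    rw [Equiv.Perm.mul_apply, Equiv.Perm.mul_apply, (inv₀_fix _).2 h]
    exact Equiv.apply_symm_apply _ p
  let f : S → {n : fixN // n ≠ 1} := fun g => ⟨⟨_, hmem g⟩, fun e => by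
    have e' : ((g : ↥M24) : Equiv.Perm GolayPt) * (inv₀ : Equiv.Perm GolayPt) *
        ((g : ↥M24) : Equiv.Perm GolayPt)⁻¹ = 1 := congrArg Subtype.val e
    rw [conj_eq_one_iff] at e'
    exact base_out ((inv₀_fix _).1 (by rw [e']; rfl))⟩
  have hfib : ∀ a b : S, f a = f b → a⁻¹ * b ∈ cent.subgroupOf S := by
    intro a b e
    have e' : ((a : ↥M24) : Equiv.Perm GolayPt) * (inv₀ : Equiv.Perm GolayPt) *
        ((a : ↥M24) : Equiv.Perm GolayPt)⁻¹ = ((b : ↥M24) : Equiv.Perm GolayPt) *
          (inv₀ : Equiv.Perm GolayPt) * ((b : ↥M24) : Equiv.Perm GolayPt)⁻¹ :=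
      congrArg (fun n => ((n.1 : fixN) : Equiv.Perm GolayPt)) e
    rw [Subgroup.mem_subgroupOf, Subgroup.mem_centralizer_singleton_iff]
    refine Subtype.ext ?_
    show ((a : ↥M24) : Equiv.Perm GolayPt)⁻¹ * (b : ↥M24) * (inv₀ : Equiv.Perm GolayPt) =
      (inv₀ : Equiv.Perm GolayPt) * (((a : ↥M24) : Equiv.Perm GolayPt)⁻¹ * (b : ↥M24))
    calc ((a : ↥M24) : Equiv.Perm GolayPt)⁻¹ * (b : ↥M24) * (inv₀ : Equiv.Perm GolayPt)
        = ((a : ↥M24) : Equiv.Perm GolayPt)⁻¹ * (((b : ↥M24) : Equiv.Perm GolayPt) * inv₀ *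
            ((b : ↥M24) : Equiv.Perm GolayPt)⁻¹) * (b : ↥M24) := by group
      _ = ((a : ↥M24) : Equiv.Perm GolayPt)⁻¹ * (((a : ↥M24) : Equiv.Perm GolayPt) * inv₀ *
            ((a : ↥M24) : Equiv.Perm GolayPt)⁻¹) * (b : ↥M24) := by rw [e']
      _ = (inv₀ : Equiv.Perm GolayPt) * (((a : ↥M24) : Equiv.Perm GolayPt)⁻¹ * (b : ↥M24)) := by group
  have hidx : (cent.subgroupOf S).index ≤ 15 := by
    haveI : Fintype fixN := Fintype.ofFinite _
    have hN : Nat.card {n : fixN // n ≠ 1} = 15 := by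
      classical
      rw [Nat.card_eq_fintype_card, Fintype.card_subtype_compl, Fintype.card_subtype_eq,
        ← Nat.card_eq_fintype_card, fixN_card]
    rw [← hN]
    refine Nat.card_le_card_of_injective (fun q => f (Quotient.out q)) fun p q e => ?_
    rw [← Quotient.out_eq p, ← Quotient.out_eq q]
    exact QuotientGroup.eq.2 (hfib _ _ e)
  have h := (cent.subgroupOf S).index_mul_card
  rw [hS, Nat.card_congr (Subgroup.subgroupOfEquivOfLe hle).toEquiv] at h
  nlinarith

/-- An entry of the augmented matrix of the basic translation. -/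
def baseEntry (i j : Fin 5) : ZMod 2 :=
  Fin.insertNth (α := fun _ => ZMod 2) 1 ((Pi.single j 1 : Fin 5 → ZMod 2) 1)
    (((Pi.single j 1 : Fin 5 → ZMod 2) ∘ Fin.succAbove 1) +
      (Pi.single j 1 : Fin 5 → ZMod 2) 1 • e₀) i

theorem transvection_entries : ∀ i j : Fin 5,
    baseEntry i j = (if i = j then (1 : ZMod 2) else 0) + (if 0 = i ∧ 1 = j then 1 else 0) := by
  decide +kernel

open Linear.TransvCentTwo in
theorem card_transvection_cent :
    Nat.card (Subgroup.centralizer ({z₀ (ZMod 2) 3} : Set (Matrix.SpecialLinearGroup (Fin 5) (ZMod 2)))) ≤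
      21504 := by
  let f : ZMod 2 × (Fin 3 → ZMod 2) × (Fin 3 → ZMod 2) × Matrix.SpecialLinearGroup (Fin 3) (ZMod 2) →
      Subgroup.centralizer ({z₀ (ZMod 2) 3} : Set (Matrix.SpecialLinearGroup (Fin 5) (ZMod 2))) :=
    fun x => ⟨el x.1 x.2.1 x.2.2.1 x.2.2.2, mem_cent_el _ _ _ _⟩
  refine (Nat.card_le_card_of_surjective f fun g => ?_).trans ?_
  · obtain ⟨c, a, b, K, e⟩ := exists_el (ZMod.card 2) g.1 g.2
    exact ⟨(c, a, b, K), Subtype.ext e.symm⟩
  · rw [Nat.card_eq_fintype_card, Fintype.card_prod, Fintype.card_prod, Fintype.card_prod, card_sl3,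
      Fintype.card_fun, ZMod.card, Fintype.card_fin]
    norm_num

theorem rep_inv₀ (h : inv₀ ∈ cent) :
    rep ⟨inv₀, h⟩ = Linear.TransvCentTwo.z₀ (ZMod 2) 3 := by
  set g : cent := ⟨inv₀, h⟩
  have hl : ∀ v, lin g v = v := fun v => tr_inj (by
    rw [tr_lin, show ((g : ↥M24) : Equiv.Perm GolayPt) =
      ((tr (Multiplicative.ofAdd e₀) : fixN) : Equiv.Perm GolayPt) from rfl, ← Subgroup.coe_inv,
      ← Subgroup.coe_mul, ← Subgroup.coe_mul, ← map_inv, ← map_mul, ← map_mul, mul_inv_cancel_comm])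
  have hs : shift g = e₀ := shift_unique _ rfl
  refine Subtype.ext ?_
  rw [Linear.TransvCentTwo.z₀_coe]
  show LinearMap.toMatrixAlgEquiv' (aug g) = _
  refine Matrix.ext fun i j => ?_
  rw [LinearMap.toMatrixAlgEquiv'_apply, aug_apply, hl, hs]
  rw [Matrix.transvection, Matrix.add_apply, Matrix.one_apply, Matrix.single_apply]
  exact transvection_entries i j

theorem exists_iso (s : Matrix.SpecialLinearGroup (Fin 5) (ZMod 2))
    (hs : (s : Matrix (Fin 5) (Fin 5) (ZMod 2)) = Matrix.transvection 0 1 1) :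
    ∃ z : ↥M24, orderOf z = 2 ∧ Nonempty (↥(Subgroup.centralizer ({z} : Set ↥M24)) ≃*
      ↥(Subgroup.centralizer ({s} : Set (Matrix.SpecialLinearGroup (Fin 5) (ZMod 2))))) := by
  obtain rfl : s = Linear.TransvCentTwo.z₀ (ZMod 2) 3 :=
    Subtype.ext (hs.trans (Linear.TransvCentTwo.z₀_coe).symm)
  have hz : inv₀ ∈ cent := Subgroup.mem_centralizer_singleton_iff.2 rfl
  have hC : ∀ g : cent, rep g ∈ Subgroup.centralizer
      ({Linear.TransvCentTwo.z₀ (ZMod 2) 3} : Set (Matrix.SpecialLinearGroup (Fin 5) (ZMod 2))) := by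
    intro g
    rw [Subgroup.mem_centralizer_singleton_iff, ← rep_inv₀ hz, ← map_mul, ← map_mul]
    exact congrArg rep (Subtype.ext (Subgroup.mem_centralizer_singleton_iff.1 g.2))
  have hinj : Function.Injective (rep.codRestrict _ hC) := fun a b e =>
    rep_injective (congrArg Subtype.val e :)
  refine ⟨inv₀, inv₀_order, ⟨MulEquiv.ofBijective (rep.codRestrict _ hC)
    ((Nat.bijective_iff_injective_and_card _).2 ⟨hinj, ?_⟩)⟩⟩
  exact le_antisymm (Nat.card_le_card_of_injective _ hinj)
    (card_transvection_cent.trans cent_card_ge)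

end Cfsg.Agent.TwoGroups.MathieuCentralizer
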